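import Cfsg.Agent.H934.HeisRoot
import Cfsg.Agent.H324.Hall.Model

/-!
# Degrees of complex representations of groups with a special subgroup

`sq_le`: `|Q| ≤ (dim V)² |Z|` if `Z` acts nontrivially on `V`, `Q` special with centre `Z` (`Heis.Hyp`);
`bigDeg_of_data`: the resulting bound for the degrees of a simple group.
-/

set_option autoImplicit false
set_option linter.unusedSectionVars false

open Module

namespace Cfsg.Agent.H715.HeisDeg

open Cfsg.Agent.H934.Heis Cfsg.Agent.H934.HeisData Cfsg.Agent.H934.HeisRoot Cfsg.Agent.H324.Hall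

section eigen

variable {V : Type*} [AddCommGroup V] [Module ℂ V] [FiniteDimensional ℂ V]

/-- An operator of finite order different from `1` has an eigenvalue different from `1`. -/
theorem exists_eigen (T : Module.End ℂ V) {n : ℕ} (hn : 0 < n) (hT : T ^ n = 1) (h1 : T ≠ 1) :
    ∃ μ : ℂ, μ ≠ 1 ∧ ∃ v : V, v ≠ 0 ∧ T v = μ • v := by
  set W : Submodule ℂ V := LinearMap.range (T - 1) with hW
  have hne : W ≠ ⊥ := by
    intro h
    apply h1
    rw [hW, LinearMap.range_eq_bot, sub_eq_zero] at h
    exact h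
  have hnt : Nontrivial W := Submodule.nontrivial_iff_ne_bot.2 hne
  have hst : ∀ w ∈ W, T w ∈ W := by
    rintro _ ⟨u, rfl⟩
    refine ⟨T u, ?_⟩
    simp only [LinearMap.sub_apply, Module.End.one_apply, map_sub]
  obtain ⟨μ, hμ⟩ := Module.End.exists_eigenvalue (T.restrict hst)
  obtain ⟨v, hv⟩ := hμ.exists_hasEigenvector
  have hv1 : T (v : V) = μ • (v : V) := congrArg Subtype.val hv.apply_eq_smul
  have hv0 : (v : V) ≠ 0 := fun h => hv.2 (Subtype.ext h)
  refine ⟨μ, ?_, v, hv0, hv1⟩
  rintro rfl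
  rw [one_smul] at hv1
  obtain ⟨w, hw⟩ := v.2
  have hw1 : T w = w + (v : V) := by
    rw [← hw, LinearMap.sub_apply, Module.End.one_apply]
    abel
  have h2 : ∀ k : ℕ, (T ^ k) w = w + (k : ℂ) • (v : V) := by
    intro k
    induction k with
    | zero => simp
    | succ k ih =>
      rw [pow_succ', Module.End.mul_apply, ih, map_add, map_smul, hw1, hv1, Nat.cast_succ, add_smul, one_smul]
      abel
  have h3 := h2 n
  rw [hT, Module.End.one_apply, left_eq_add, smul_eq_zero] at h3
  rcases h3 with h3 | h3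
  · exact hn.ne' (Nat.cast_eq_zero.1 h3)
  · exact hv0 h3

end eigen

variable {P : Type*} [Group P] [Finite P] {Z Q : Subgroup P}

/-- **The bound.** -/
theorem sq_le (h : Hyp Z Q) {V : Type*} [AddCommGroup V] [Module ℂ V] [FiniteDimensional ℂ V]
    (ρ : Representation ℂ P V) {z₀ : P} (hz₀ : z₀ ∈ Z) (h0 : ρ z₀ ≠ 1) :
    Nat.card Q ≤ finrank ℂ V ^ 2 * Nat.card Z := by
  classical
  obtain ⟨μ, hμ, v, hv, hv1⟩ := exists_eigen (ρ z₀) (orderOf_pos z₀)
    (by rw [← map_pow, pow_orderOf_eq_one, map_one]) h0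
  set E : Submodule ℂ V := Module.End.eigenspace (ρ z₀) μ with hE
  have hmem : ∀ w, w ∈ E ↔ ρ z₀ w = μ • w := fun w => Module.End.mem_eigenspace_iff
  have hst : ∀ g : P, ∀ w ∈ E, ρ g w ∈ E := by
    intro g w hw
    rw [hmem] at hw ⊢
    rw [← Module.End.mul_apply, ← map_mul, ← h.central _ hz₀ g, map_mul, Module.End.mul_apply, hw, map_smul]
  let τ : P →* Module.End ℂ E :=
    { toFun := fun g => (ρ g).restrict (hst g)
      map_one' := by ext w; simp
      map_mul' := fun a b => by ext w; simp }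
  have hτz : ∀ w : E, τ z₀ w = μ • w := fun w => Subtype.ext ((hmem _).1 w.2)
  -- traces
  have htr : ∀ x ∈ Q, x ∉ Z → LinearMap.trace ℂ E (τ x) = 0 := by
    intro x hx hxZ
    obtain ⟨y, hy, hxy⟩ := h.special x hx hxZ z₀ hz₀
    have h1 : x * y = z₀ * (y * x) := by
      rw [← hxy]; group
    have h2 : τ x * τ y = μ • (τ y * τ x) := by
      rw [← map_mul, ← map_mul, h1, map_mul]
      ext w
      rw [Module.End.mul_apply, hτz, LinearMap.smul_apply]
    have h3 : τ x = μ • (τ y * τ x * τ y⁻¹) := by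
      rw [← smul_mul_assoc, ← h2, mul_assoc, ← map_mul, mul_inv_cancel, map_one, mul_one]
    have h4 : LinearMap.trace ℂ E (τ x) = μ * LinearMap.trace ℂ E (τ x) := by
      conv_lhs => rw [h3]
      rw [map_smul, smul_eq_mul, mul_assoc (τ y), LinearMap.trace_mul_comm, mul_assoc, ← map_mul, inv_mul_cancel,
        map_one, mul_one]
    have h5 : (1 - μ) * LinearMap.trace ℂ E (τ x) = 0 := by
      linear_combination h4
    rcases mul_eq_zero.1 h5 with h6 | h6
    · exact absurd (sub_eq_zero.1 h6).symm hμ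
    · exact h6
  have hEnt : Nontrivial E := ⟨⟨⟨v, (hmem v).2 hv1⟩, 0, fun h' => hv (congrArg Subtype.val h')⟩⟩
  have hd : (finrank ℂ E : ℂ) ≠ 0 := Nat.cast_ne_zero.2 finrank_pos.ne'
  -- independence
  let ι := Q ⧸ (Z.subgroupOf Q)
  have : Fintype ι := Fintype.ofFinite ι
  let m : ι → Module.End ℂ E := fun c => τ ((c.out : Q) : P)
  have hli : LinearIndependent ℂ m := by
    rw [Fintype.linearIndependent_iff]
    intro g hg c
    have h1 := congrArg (fun T => LinearMap.trace ℂ E (T * τ ((c.out : Q) : P)⁻¹)) hg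
    simp only [zero_mul, map_zero, Finset.sum_mul, map_sum, smul_mul_assoc, map_smul, smul_eq_mul] at h1
    rw [Finset.sum_eq_single c] at h1
    · simp only [m] at h1
      rw [← map_mul, mul_inv_cancel, map_one, LinearMap.trace_one] at h1
      rcases mul_eq_zero.1 h1 with h2 | h2
      · exact h2
      · exact absurd h2 hd
    · intro b _ hb
      simp only [m]
      rw [← map_mul, htr, mul_zero]
      · exact Q.mul_mem (b.out : Q).2 (Q.inv_mem (c.out : Q).2)
      · intro hZ
        apply hb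
        have h2 : ((c.out : Q) : ι) = ((b.out : Q) : ι) := by
          rw [QuotientGroup.eq, Subgroup.mem_subgroupOf]
          have h3 := h.central _ hZ ((c.out : Q) : P)⁻¹
          have h4 : (((c.out : Q)⁻¹ * (b.out : Q) : Q) : P) =
              ((b.out : Q) : P) * ((c.out : Q) : P)⁻¹ := by
            show ((c.out : Q) : P)⁻¹ * ((b.out : Q) : P) = _
            calc ((c.out : Q) : P)⁻¹ * ((b.out : Q) : P)
                = ((c.out : Q) : P)⁻¹ * (((b.out : Q) : P) * ((c.out : Q) : P)⁻¹) * ((c.out : Q) : P) := by group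
              _ = _ := by rw [h3]; group
          rw [h4]
          exact hZ
        rw [QuotientGroup.out_eq', QuotientGroup.out_eq'] at h2
        exact h2.symm
    · intro h2
      exact absurd (Finset.mem_univ c) h2
  have h1 := hli.fintype_card_le_finrank
  rw [Module.finrank_linearMap] at h1
  have h2 : Nat.card ι * Nat.card (Z.subgroupOf Q) = Nat.card Q := by
    rw [mul_comm]
    exact (Z.subgroupOf Q).card_mul_index
  have h3 : Nat.card (Z.subgroupOf Q) = Nat.card Z := Nat.card_congr (Subgroup.subgroupOfEquivOfLe h.le).toEquiv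
  have h4 : finrank ℂ E ≤ finrank ℂ V := Submodule.finrank_le E
  rw [← h2, h3, Nat.card_eq_fintype_card (α := ι)]
  refine Nat.mul_le_mul_right _ (h1.trans ?_)
  rw [pow_two]
  exact Nat.mul_le_mul h4 h4

/-- **Degrees of a simple group with the data of a special subgroup.** -/
theorem bigDeg_of_data {Γ : Type*} [Group Γ] [Finite Γ] {V A K : Type*} [AddCommGroup V] [AddCommGroup A]
    [Nontrivial A] (D : Data Γ V A K) {X : Type*} [Group X] [IsSimpleGroup X] (π : Γ →* X) {a : A}
    (ha : π (D.z a) ≠ 1) {d : ℕ} (hd : d ^ 2 < Nat.card V) : BigDeg X d := by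
  intro m σ hσ
  have hker : σ.ker = ⊥ := by
    rcases (inferInstance : σ.ker.Normal).eq_bot_or_eq_top with h1 | h1
    · exact h1
    · exfalso
      apply hσ
      ext1 t
      have : t ∈ σ.ker := by rw [h1]; trivial
      exact this
  have hinj : Function.Injective σ := (MonoidHom.ker_eq_bot_iff σ).1 hker
  let ρ : Representation ℂ D.Pg (Fin m → ℂ) := repOf (σ.comp (π.comp D.Pg.subtype))
  have hA : Finite A := Finite.of_injective D.z fun a b hab => by
    have h1 : D.z (a - b) = 1 := by
      rw [sub_eq_add_neg, D.z_add, D.z_neg, hab, mul_inv_cancel]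
    exact sub_eq_zero.1 (D.z_inj _ h1)
  have h1 := sq_le D.hyp ρ (z₀ := ⟨D.z a, D.z_mem a⟩) ⟨a, rfl⟩ (by
    intro h
    rw [show ρ ⟨D.z a, D.z_mem a⟩ = repOf (σ.comp (π.comp D.Pg.subtype)) ⟨D.z a, D.z_mem a⟩ from rfl, repOf_eq_one] at h
    exact ha (hinj (by rw [map_one]; exact h)))
  rw [D.card_QQ, D.card_ZZ, finrank_fin_fun] at h1
  have h2 : Nat.card V ≤ m ^ 2 := Nat.le_of_mul_le_mul_right h1 Nat.card_pos
  exact lt_of_pow_lt_pow_left₀ 2 (Nat.zero_le _) (hd.trans_le h2)

end Cfsg.Agent.H715.HeisDeg
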