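import Cfsg.Agent.H715.HeisDeg
import Cfsg.Agent.H934.HeisTwE6

/-!
# Degrees of complex representations of `²E₆(q)`
-/

set_option autoImplicit false
set_option linter.unusedSectionVars false

open Module

namespace Cfsg.Agent.H715.HeisDeg

open Cfsg.Agent.H934.Heis Cfsg.Agent.H934.HeisData Cfsg.Agent.H934.HeisRoot Cfsg.Agent.H934.HeisTw
  Cfsg.Agent.H324.Hall

section

variable {Γ V A K : Type*} [Group Γ] [AddCommGroup V] [AddCommGroup A] {D : Data Γ V A K} {σ : Γ →* Γ}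
  {G : Subgroup Γ} {φ : A → A} {sV : V → V}

theorem card_Zg_le (T : TwData D σ G φ sV) [Finite A] :
    Nat.card (D.Zg.subgroupOf (TwData.Q0 D G)) ≤ Nat.card {a : A // φ a = a} := by
  choose f hf using fun z : D.Zg.subgroupOf (TwData.Q0 D G) => z.2
  refine Nat.card_le_card_of_injective
    (fun z => (⟨f z, T.fix_z (a := f z) (by
      have h1 : D.z (f z) = ((z : TwData.Q0 D G) : Γ) := hf z
      rw [h1]
      exact (z : TwData.Q0 D G).2.1)⟩ : {a : A // φ a = a})) ?_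
  intro z w h
  have h1 : f z = f w := congrArg Subtype.val h
  have h2 : D.z (f z) = ((z : TwData.Q0 D G) : Γ) := hf z
  have h3 : D.z (f w) = ((w : TwData.Q0 D G) : Γ) := hf w
  apply Subtype.ext
  apply Subtype.ext
  rw [← h2, ← h3, h1]

theorem bigDeg_of_tw [Finite Γ] [Nontrivial A] (T : TwData D σ G φ sV) {X0 : Type*} [Group X0] [IsSimpleGroup X0]
    (π : G →* X0) {a0 : A} (h0 : φ a0 = a0) (ha0 : π ⟨D.z a0, T.z_mem a0 h0⟩ ≠ 1) {d : ℕ}
    (hd : d ^ 2 < Nat.card {v : V // sV v = v}) : BigDeg X0 d := by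
  have hA : Finite A := Finite.of_injective D.z fun a b hab => z_injective D hab
  intro m τ hτ
  have hker : τ.ker = ⊥ := by
    rcases (inferInstance : τ.ker.Normal).eq_bot_or_eq_top with h1 | h1
    · exact h1
    · exfalso
      apply hτ
      ext1 t
      have : t ∈ τ.ker := by rw [h1]; trivial
      exact this
  have hinj : Function.Injective τ := (MonoidHom.ker_eq_bot_iff τ).1 hker
  let ρ : Representation ℂ (TwData.Q0 D G) (Fin m → ℂ) :=
    repOf (τ.comp (π.comp (Subgroup.inclusion (TwData.Q0_le (D := D) (G := G)))))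
  have hmem : (⟨D.z a0, T.z_mem a0 h0, D.z_mem_Qg a0⟩ : TwData.Q0 D G) ∈ D.Zg.subgroupOf (TwData.Q0 D G) := ⟨a0, rfl⟩
  have h1 := sq_le T.hyp ρ hmem (by
    intro h
    have h2 := (repOf_eq_one (τ.comp (π.comp (Subgroup.inclusion (TwData.Q0_le (D := D) (G := G))))) _).1 h
    exact ha0 (hinj (by rw [map_one]; exact h2)))
  rw [finrank_fin_fun] at h1
  have h2 := T.card_Q.trans (h1.trans (Nat.mul_le_mul_left _ (card_Zg_le T)))
  have hne : Nonempty {a : A // φ a = a} := ⟨⟨a0, h0⟩⟩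
  have h3 : Nat.card {v : V // sV v = v} ≤ m ^ 2 := Nat.le_of_mul_le_mul_right h2 Nat.card_pos
  exact lt_of_pow_lt_pow_left₀ 2 (Nat.zero_le _) (hd.trans_le h3)

end

section

variable {F Γ ι κ : Type*} [Field F] [Fintype F] [Group Γ] [Fintype ι] [DecidableEq ι] (R : RH Γ F ι κ)

/-- The bound for root elements over a finite field. -/
theorem bigDeg_final [Finite Γ] (σ : Γ →* Γ) (G : Subgroup Γ) (φ : F →+* F) (ρ : Equiv.Perm ι) (ε : ι → F) {q n : ℕ}
    (hq : 1 < q) (hn : 1 < n) (hφ : ∀ x, φ x = x ^ q) (hF : Fintype.card F = q ^ n)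
    (sig_x : ∀ i t, σ (R.x i t) = R.x (ρ i) (ε i * φ t)) (sig_z : ∀ t, σ (R.z t) = R.z (φ t))
    (fix : ∀ g ∈ G, σ g = g) (z_mem : ∀ a, φ a = a → R.z a ∈ G)
    (hVn : ∀ v, (sV φ ρ ε)^[n] v = v)
    (lift0 : ∀ i t, ∃ a, R.X (tr (sV φ ρ ε) n (Pi.single i t)) * R.z a ∈ G)
    {X0 : Type*} [Group X0] [IsSimpleGroup X0]
    (π : G →* X0) (hπ : Function.Injective π) {d : ℕ} (hd : d ^ 2 < q ^ Fintype.card ι) : BigDeg X0 d := by
  obtain ⟨b, hb⟩ := exists_distinct hq hn hφ hF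
  obtain ⟨b0, hb0⟩ := exists_tr_one (by omega) hb (iterate_frob_n hφ hF)
  have T := of_trace R σ G φ ρ ε n sig_x sig_z fix z_mem hVn hb0 lift0
  have h1 : φ 1 = 1 := map_one φ
  have hc2 : q ^ Fintype.card ι ≤ Nat.card {v : ι → F // sV φ ρ ε v = v} := by
    have h3 := card_le_pow (M := ι → F) (by omega) hb (s := sV φ ρ ε) (sV_smul φ ρ ε) hVn
    rw [Nat.card_fun, Nat.card_eq_fintype_card (α := F), Nat.card_eq_fintype_card (α := ι), hF, ← pow_mul, mul_comm,
      pow_mul] at h3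
    exact le_of_pow_le_pow_left₀ (by omega) (by omega) h3
  refine bigDeg_of_tw T π h1 (fun h => ?_) (hd.trans_le hc2)
  have h3 : (⟨R.z 1, z_mem 1 h1⟩ : G) = 1 := hπ (by rw [map_one]; exact h)
  exact one_ne_zero (R.z_inj 1 (congrArg Subtype.val h3))

end

section

open Cfsg.Lie
open Cfsg.Agent.ChevalleyStructure
open Cfsg.Agent.ChevalleyStructure.Elts hiding x_add x_zero x_eq_one_iff
open Cfsg.Agent.ChevalleyStructure.TwE6Basic
open Cfsg.Agent.ChevalleyStructure.TwE6BN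
open Cfsg.Agent.H934.HeisTwE6

universe u

/-- **The bound for `²E₆(q)`.** -/
theorem bigDeg_2E6 {K : Type u} [Field K] [Fintype K] {q : ℕ} (hq : IsPrimePow q) (hK : Fintype.card K = q ^ 2)
    [hs : IsSimpleGroup ↥(Cfsg.Lie.twistedE6 K q)] {d : ℕ} (hd : d ^ 2 < q ^ 20) :
    BigDeg ↥(Cfsg.Lie.twistedE6 K q) d := by
  classical
  obtain ⟨φ, hφ, hqq⟩ := exists_frob hq hK
  have : Finite (GL chevE6.Idx K) := inferInstance
  exact bigDeg_final (R K) (sg φ) (twistedE6 K q) φ rhoI (fun i => (eps i : K)) hq.one_lt (n := 2) (by norm_num) hφ hK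
    (sig_R φ) (sig_z φ) (fun g hg => twisted_le_fix φ hφ hqq hg) (z_mem hφ hqq)
    (sV_two fun t => by rw [hφ, hφ, hqq])
    (fun i t => lift_two (R K) (lift hφ hqq i t)) (MonoidHom.id _) Function.injective_id (by rwa [Fintype.card_fin])

end

end Cfsg.Agent.H715.HeisDeg
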