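import Cfsg.Agent.H324.Hall.Spor
import Cfsg.Agent.H324.Hall.Model

/-!
# Rows of Lie type of `PartB`: the conclusion from a linear model
-/

set_option autoImplicit false
set_option linter.unusedSectionVars false

open Module Cfsg

universe u

namespace Cfsg.Agent.H715.Lie

open Cfsg.Agent.H324.Hall

/-- `p f ≤ p ^ f` -/
theorem mul_le_pow {p f : ℕ} (hp : 2 ≤ p) (hf : 1 ≤ f) : p * f ≤ p ^ f := by
  obtain ⟨k, rfl⟩ : ∃ k, f = k + 1 := ⟨f - 1, by omega⟩
  rw [pow_succ, mul_comm]
  exact Nat.mul_le_mul_right _ (by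
    have h1 : k + 1 ≤ 2 ^ k := Nat.lt_two_pow_self
    exact h1.trans (Nat.pow_le_pow_left hp k))

theorem three_mul_le {p f : ℕ} (hp : 3 ≤ p) (hf : 1 ≤ f) : 3 * f ≤ p ^ f :=
  (Nat.mul_le_mul_right _ hp).trans (mul_le_pow (by omega) hf)

/-- Characteristic and degree. -/
theorem exists_f {F : Type*} [Field F] [Fintype F] {p : ℕ} [CharP F p] (hp : p.Prime) :
    ∃ f : ℕ, 1 ≤ f ∧ Fintype.card F = p ^ f := by
  obtain ⟨n, -, h⟩ := FiniteField.card F p
  exact ⟨n, n.pos, h⟩

section

variable {T : Type u} [Group T] [Finite T] [IsSimpleGroup T] {Y : Subgroup T} {n : ℕ} {S : Type u} [Group S]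
  [IsSimpleGroup S] {A : Subgroup (MulAut T)}

/-- The conclusion from an isomorphism of `T` with a linear group. -/
theorem goal_of_sub (f : Frame T Y n S A) {ι : Type*} [Fintype ι] [DecidableEq ι] {F : Type*} [Field F] [Finite F]
    {p : ℕ} [CharP F p] (hp : p.Prime) (hpY : ¬ p ∣ Nat.card Y) (X : Subgroup (Matrix.GeneralLinearGroup ι F))
    (e : T ≃* X) {o : ℕ} (ho : OutLe X o) (hb : BigDeg X (o * Fintype.card ι)) : Goal Y A f.conj_mem := by
  let φ : Representation F X (ι → F) :=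
    { toFun := fun x => Matrix.toLin' ((x : Matrix.GeneralLinearGroup ι F) : Matrix ι ι F)
      map_one' := by
        rw [Subgroup.coe_one, Units.val_one, Matrix.toLin'_one]
        rfl
      map_mul' := fun x y => by
        rw [Subgroup.coe_mul, Units.val_mul, Matrix.toLin'_mul]
        rfl }
  obtain ⟨a, b, hab⟩ := f.nc
  refine f.goal_of_rep e hp hpY φ ?_ ho (by rwa [Module.finrank_fintype_fun_eq_card])
  by_contra hcon
  push Not at hcon
  have h1 : ∀ x : X, x = 1 := by
    intro x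
    have h2 : Matrix.toLin' ((x : Matrix.GeneralLinearGroup ι F) : Matrix ι ι F) = Matrix.toLin' 1 := by
      rw [Matrix.toLin'_one]
      exact hcon x
    exact Subtype.ext (Units.ext (Matrix.toLin'.injective h2))
  exact hab (e.injective ((h1 (e (a * b))).trans (h1 (e (b * a))).symm))

end

theorem bigDeg_of_bound {X : Type*} [Group X] [Finite X] [IsSimpleGroup X] (hX : ∃ a b : X, a * b ≠ b * a) {d D : ℕ}
    (h : ∀ (k : ℕ) (ρ : Representation ℂ X (Fin k → ℂ)), ρ.IsIrreducible → 2 ≤ k → D ≤ k) (hd : d < D) : BigDeg X d :=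
  bigDeg_of_irr (commutator_eq_top hX) (MonoidHom.id X) (exists_ne (1 : X)) fun k ρ hρ hk =>
    lt_of_lt_of_le hd (h k ρ hρ hk)

end Cfsg.Agent.H715.Lie
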