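import Mathlib
import Cfsg.Agent.H715.Red
import Cfsg.Agent.H386.Factor

/-!
# Structure in the nonsoluble case (helper715)
-/

set_option autoImplicit false
set_option linter.unusedSectionVars false

namespace Cfsg.Agent.H715

open Subgroup Cfsg.Agent.H386.Factor Cfsg.Agent.Lib.MinNormal Cfsg.Agent.Lib.MinNormalNonabelian

universe u

/-- A normal subgroup of a nonabelian minimal normal subgroup is a direct power of a simple group. -/
theorem exists_dirpow {H : Type u} [Group H] [Finite H] (Z : Subgroup H) [Z.Normal]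
    (hmin : ∀ M : Subgroup H, M.Normal → M ≤ Z → M = ⊥ ∨ M = Z)
    (hna : ¬ ∀ x ∈ Z, ∀ y ∈ Z, Commute x y) (Y : Subgroup H) (hYZ : Y ≤ Z)
    (hYn : Z ≤ normalizer (Y : Set H)) :
    ∃ (n : ℕ) (S : Subgroup H), IsSimpleGroup S ∧ (∃ a b : S, a * b ≠ b * a) ∧
      Nonempty (Y ≃* (Fin n → S)) := by
  classical
  obtain ⟨⟨S, hS⟩, hind, hsup, hsimp, hc, hconj⟩ := nonabelian_structure Z hmin hna
  have hsub : minSet Z ⊆ minSet Z := le_rfl
  have h1 := eq_sSup_of_normal hind hsub hsup hc hYZ hYn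
  let ι := {T : Subgroup H // T ∈ minSet Z ∧ T ≤ Y}
  have : Finite ι := Subtype.finite
  have hcomm : Pairwise fun i j : ι => ∀ x y : H, x ∈ i.1 → y ∈ j.1 → Commute x y := by
    intro i j hij x y hx hy
    refine commute_of_mem hind (fun S hS => hS.2.2.1) (fun S hS => hS.1) i.2.1 j.2.1 ?_ hx hy
    exact fun h => hij (Subtype.ext h)
  have hi : iSupIndep (fun i : ι => i.1) := by
    have h2 := (sSupIndep_iff (minSet Z)).mp hind
    let g : ι → minSet Z := fun i => ⟨i.1, i.2.1⟩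
    have hg : Function.Injective g := by
      intro i j hij
      exact Subtype.ext (congrArg (fun t : minSet Z => t.1) hij)
    exact h2.comp hg
  have hs : ⨆ i : ι, i.1 = Y := by
    refine Eq.trans ?_ h1
    rw [sSup_eq_iSup']
    rfl
  obtain ⟨e⟩ := mulEquiv_pi_of_iSupIndep (fun i : ι => i.1) hcomm hi hs
  have hiso : ∀ i : ι, Nonempty (i.1 ≃* S) := by
    intro i
    obtain ⟨g, hg⟩ := hconj S hS i.1 i.2.1
    refine ⟨(S.equivMapOfInjective (MulAut.conj g).toMonoidHom (MulAut.conj g).injective).trans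
      (MulEquiv.subgroupCongr hg.symm) |>.symm⟩
  let e2 : (∀ i : ι, i.1) ≃* (ι → S) := MulEquiv.piCongrRight fun i => (hiso i).some
  obtain ⟨n, ⟨f⟩⟩ := Finite.exists_equiv_fin ι
  let e3 : (ι → S) ≃* (Fin n → S) :=
    { Equiv.arrowCongr f (Equiv.refl S) with
      map_mul' := fun a b => rfl }
  have hSs := hsimp S hS
  refine ⟨n, S, hSs, ?_, ⟨(e.trans e2).trans e3⟩⟩
  by_contra hcon
  push Not at hcon
  apply hS.2.1
  rw [eq_bot_iff]
  intro z hz
  rw [mem_bot]
  exact hc S hS z hz (fun t ht => congrArg Subtype.val (hcon ⟨z, hz⟩ ⟨t, ht⟩))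

/-- `N ≤ N_G(R)` from one-sided information. -/
theorem le_normalizer_of {G : Type*} [Group G] {N R : Subgroup G}
    (h : ∀ n ∈ N, ∀ r ∈ R, n * r * n⁻¹ ∈ R) : N ≤ normalizer (R : Set G) := by
  intro n hn
  rw [mem_normalizer_iff]
  intro x
  refine ⟨fun hx => h n hn x hx, fun hx => ?_⟩
  have h1 := h n⁻¹ (inv_mem hn) _ hx
  have h2 : n⁻¹ * (n * x * n⁻¹) * n⁻¹⁻¹ = x := by group
  rwa [h2] at h1

variable {G : Type u} [Group G] [Finite G]

/-- Elements of a nonabelian minimal normal subgroup of order prime to that of a simple factor are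
trivial. -/
theorem eq_one_of_factor {N T : Subgroup G} [N.Normal]
    (hmin : ∀ M : Subgroup G, M.Normal → M ≤ N → M = ⊥ ∨ M = N)
    (hna : ¬ ∀ x ∈ N, ∀ y ∈ N, Commute x y) (hT : IsFactor N T) {x : G} (hx : x ∈ N)
    (ho : (orderOf x).Coprime (Nat.card T)) : x = 1 := by
  have h1 : ∀ g : G, ∀ t ∈ T, x * (g * t * g⁻¹) = (g * t * g⁻¹) * x := by
    intro g t ht
    have hyN : g⁻¹ * x * g ∈ N := by
      have := (inferInstance : N.Normal).conj_mem x hx g⁻¹
      rwa [inv_inv] at this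
    obtain ⟨s, hs, c, hcN, hc, hsc⟩ := hT.split _ hyN
    have ho2 : (s * c) ^ (orderOf x) = 1 := by
      rw [← hsc]
      have h2 : (g⁻¹ * x * g) ^ (orderOf x) = g⁻¹ * x ^ (orderOf x) * g := by
        have := conj_pow (i := orderOf x) (a := g⁻¹) (b := x)
        rwa [inv_inv] at this
      rw [h2, pow_orderOf_eq_one, mul_one, inv_mul_cancel]
    have hcomm : Commute s c := (hc s hs).symm
    rw [hcomm.mul_pow] at ho2
    have hs1 : s ^ (orderOf x) = 1 := by
      apply hT.centerless _ (pow_mem hs _)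
      intro t ht
      have h3 : s ^ (orderOf x) = (c ^ (orderOf x))⁻¹ := mul_eq_one_iff_eq_inv.1 ho2
      rw [h3]
      have h4 : Commute c t := hc t ht
      exact (h4.pow_left _).inv_left.eq
    have hs2 : s ^ (Nat.card T) = 1 := by
      have := pow_card_eq_one' (x := (⟨s, hs⟩ : T))
      exact congrArg Subtype.val this
    have hs3 : s = 1 := by
      rw [← orderOf_eq_one_iff]
      exact Nat.eq_one_of_dvd_coprimes ho (orderOf_dvd_of_pow_eq_one hs1)
        (orderOf_dvd_of_pow_eq_one hs2)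
    rw [hs3, one_mul] at hsc
    have h5 := hc t ht
    rw [← hsc] at h5
    have h6 : x * (g * t * g⁻¹) = g * ((g⁻¹ * x * g) * t) * g⁻¹ := by group
    have h7 : (g * t * g⁻¹) * x = g * (t * (g⁻¹ * x * g)) * g⁻¹ := by group
    rw [h6, h7, h5]
  have h2 : N ≤ centralizer {x} := hT.gen _ (fun g t ht => by
    rw [mem_centralizer_singleton_iff]
    exact (h1 g t ht).symm)
  have h3 : (N ⊓ centralizer (N : Set G)) = ⊥ := by
    apply eq_bot_of_abelian hmin hna hT inf_le_left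
    · intro n hn k hk
      refine mem_inf.2 ⟨(inferInstance : N.Normal).conj_mem k hk.1 n, ?_⟩
      have hk2 := mem_centralizer_iff.1 hk.2
      rw [mem_centralizer_iff]
      intro m hm
      have h4 : n * k * n⁻¹ = k := by
        rw [hk2 n hn, mul_inv_cancel_right]
      rw [h4]
      exact hk2 m hm
    · intro a ha b hb
      exact mem_centralizer_iff.1 hb.2 a ha.1
  have h4 : x ∈ (N ⊓ centralizer (N : Set G) : Subgroup G) := by
    refine mem_inf.2 ⟨hx, ?_⟩
    rw [mem_centralizer_iff]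
    intro m hm
    have := h2 hm
    rwa [mem_centralizer_singleton_iff] at this
  rw [h3, mem_bot] at h4
  exact h4

/-- The situation in the nonsoluble case. -/
structure Sit (H Z L Q : Subgroup G) [Q.Normal] (T : Subgroup (G ⧸ Q)) : Prop where
  hH : (Nat.card H).Coprime H.index
  hE : Ext H
  hZH : Z ≤ H
  hZn : ∀ h ∈ H, ∀ z ∈ Z, h * z * h⁻¹ ∈ Z
  hZ : Z ≠ ⊥
  hL : L.Normal
  hHL : H ⊓ L = Z
  hQL : Q ≤ L
  hQab : ∀ x ∈ Q, ∀ y ∈ Q, x * y = y * x
  hQH : (Nat.card H).Coprime (Nat.card Q)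
  hT : IsFactor (L.map (QuotientGroup.mk' Q)) T
  hmin : ∀ M : Subgroup (G ⧸ Q), M.Normal → M ≤ L.map (QuotientGroup.mk' Q) →
    M = ⊥ ∨ M = L.map (QuotientGroup.mk' Q)
  hna : ¬ ∀ x ∈ L.map (QuotientGroup.mk' Q), ∀ y ∈ L.map (QuotientGroup.mk' Q), Commute x y

namespace Sit

variable {H Z L Q : Subgroup G} [hQn : Q.Normal] {T : Subgroup (G ⧸ Q)}

theorem normal_Lb (s : Sit H Z L Q T) : (L.map (QuotientGroup.mk' Q)).Normal :=
  s.hL.map _ (QuotientGroup.mk'_surjective Q)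

theorem hZL (s : Sit H Z L Q T) : Z ≤ L := s.hHL ▸ inf_le_right

theorem inter (s : Sit H Z L Q T) {x : G} (hx : x ∈ H) (hxQ : x ∈ Q) : x = 1 := by
  have h1 := (disjoint_of_coprime_natCard s.hQH).eq_bot
  have h2 : x ∈ H ⊓ Q := ⟨hx, hxQ⟩
  rwa [h1, mem_bot] at h2

theorem mk_inj (s : Sit H Z L Q T) {x y : G} (hx : x ∈ H) (hy : y ∈ H)
    (h : QuotientGroup.mk' Q x = QuotientGroup.mk' Q y) : x = y := by
  have h1 : x⁻¹ * y ∈ Q := QuotientGroup.eq.1 h
  have h2 := s.inter (mul_mem (inv_mem hx) hy) h1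
  exact inv_mul_eq_one.1 h2

theorem inter_b (s : Sit H Z L Q T) : H.map (QuotientGroup.mk' Q) ⊓ L.map (QuotientGroup.mk' Q) =
    Z.map (QuotientGroup.mk' Q) := by
  apply le_antisymm
  · rintro _ ⟨⟨h, hh, rfl⟩, ⟨l, hl, hlh⟩⟩
    have h1 : l⁻¹ * h ∈ Q := QuotientGroup.eq.1 hlh
    have h2 : h ∈ L := by
      have := L.mul_mem hl (s.hQL h1)
      simpa using this
    refine ⟨h, ?_, rfl⟩
    rw [← s.hHL]
    exact ⟨hh, h2⟩
  · exact le_inf (map_mono s.hZH) (map_mono s.hZL)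

theorem relIndex_L (s : Sit H Z L Q T) :
    (Z.map (QuotientGroup.mk' Q)).relIndex (L.map (QuotientGroup.mk' Q)) ∣ H.index := by
  have := s.normal_Lb
  rw [← s.inter_b, inf_relIndex_right]
  exact (relIndex_dvd_index' _ _).trans (index_map_dvd H (QuotientGroup.mk'_surjective Q))

theorem relIndex_T (s : Sit H Z L Q T) : (Z.map (QuotientGroup.mk' Q)).relIndex T ∣ H.index := by
  have hTn : (T.subgroupOf (L.map (QuotientGroup.mk' Q))).Normal := by
    constructor
    intro t ht n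
    exact s.hT.norm n n.2 t ht
  have h1 := relIndex_dvd_index' ((Z.map (QuotientGroup.mk' Q)).subgroupOf (L.map (QuotientGroup.mk' Q)))
    (T.subgroupOf (L.map (QuotientGroup.mk' Q)))
  rw [relIndex_subgroupOf s.hT.le] at h1
  exact h1.trans s.relIndex_L

theorem card_Zb (s : Sit H Z L Q T) : Nat.card (Z.map (QuotientGroup.mk' Q)) ∣ Nat.card H :=
  (card_dvd_of_surjective _ ((QuotientGroup.mk' Q).subgroupMap_surjective Z)).trans
    (card_dvd_of_le s.hZH)

theorem Yb_ne_bot (s : Sit H Z L Q T) : Z.map (QuotientGroup.mk' Q) ⊓ T ≠ ⊥ := by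
  intro h0
  have h1 : Nat.card T ∣ H.index := by
    have h2 := s.relIndex_T
    rwa [← inf_relIndex_right, h0, relIndex_bot_left] at h2
  apply s.hZ
  rw [eq_bot_iff]
  intro z hz
  have := s.normal_Lb
  have h2 : QuotientGroup.mk' Q z = 1 := by
    apply eq_one_of_factor s.hmin s.hna s.hT (mem_map_of_mem _ (s.hZL hz))
    refine Nat.Coprime.coprime_dvd_left ?_ (Nat.Coprime.coprime_dvd_right h1 s.hH)
    refine (orderOf_map_dvd (QuotientGroup.mk' Q) z).trans ?_
    have h3 : orderOf z = orderOf (⟨z, s.hZH hz⟩ : H) := (Subgroup.orderOf_mk z _).symm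
    rw [h3]
    exact orderOf_dvd_natCard _
  rw [mem_bot]
  exact s.inter (s.hZH hz) ((QuotientGroup.eq_one_iff z).1 h2)

theorem eq_L_of_le (s : Sit H Z L Q T) (h : T ≤ Z.map (QuotientGroup.mk' Q)) : Z ⊔ Q = L := by
  have := s.normal_Lb
  have h1 : Nat.card T ∣ Nat.card H := (card_dvd_of_le h).trans s.card_Zb
  have h2 : L.map (QuotientGroup.mk' Q) ≤ Z.map (QuotientGroup.mk' Q) := by
    rw [← relIndex_eq_one]
    by_contra hne
    obtain ⟨ℓ, hℓ, hd⟩ := Nat.exists_prime_and_dvd hne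
    have := Fact.mk hℓ
    obtain ⟨x, hx⟩ := exists_prime_orderOf_dvd_card' (G := L.map (QuotientGroup.mk' Q)) ℓ
      (hd.trans (relIndex_dvd_card _ _))
    have h3 : (x : G ⧸ Q) = 1 := by
      apply eq_one_of_factor s.hmin s.hna s.hT x.2
      rw [Subgroup.orderOf_coe, hx]
      exact (Nat.Coprime.coprime_dvd_left h1 (Nat.Coprime.coprime_dvd_right (hd.trans s.relIndex_L) s.hH)).symm
    have h4 : x = 1 := Subtype.ext h3
    rw [h4, orderOf_one] at hx
    exact hℓ.one_lt.ne hx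
  apply le_antisymm (sup_le s.hZL s.hQL)
  intro l hl
  obtain ⟨z, hz, hzl⟩ := h2 (mem_map_of_mem _ hl)
  have h3 : z⁻¹ * l ∈ Q := QuotientGroup.eq.1 hzl
  have h4 : l = z * (z⁻¹ * l) := by group
  rw [h4]
  exact mul_mem (mem_sup_left hz) (mem_sup_right h3)

end Sit

end Cfsg.Agent.H715
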